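import Mathlib
import Cfsg.Agent.H580.Lie
import Cfsg.Agent.Mrg.ParSys.Fam.TwoFFour

/-!
# The groups `²F₄(q)`
-/

set_option autoImplicit false
open scoped Pointwise

namespace Cfsg.Agent.H580.LieF

open Cfsg

universe u v

variable {A : Type v} {G : Type u} [Group A] [Group G] [MulDistribMulAction A G]

theorem false_of_2F4 [Finite A] [Finite G] [IsSimpleGroup G] (hcop : (Nat.card A).Coprime (Nat.card G))
    (hsol : Group.IsSolvable A) (hodd : Odd (Nat.card A)) (hna : ¬ Group.IsSolvable G) (hcl : Two.TwoCl A G)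
    (hG : Lie.Iso2F4 G) : False := by
  obtain ⟨K, _, _, m, hm, hK, ⟨e⟩⟩ := hG
  obtain ⟨Q, UE, s, t, hQ, -⟩ := Cfsg.Agent.ParSys.Fam.TwoFFour.exists_all hm hK
  have : Fact (Nat.Prime 2) := ⟨Nat.prime_two⟩
  have h := FixBN.Transport.split e.symm Q hQ.split
  refine Lie.false_rank_two hcop hsol hodd hna hcl h (s₀ := e.symm s) (t₀ := e.symm t) ?_ ?_ ?_
  · change e.symm '' Q.S = _
    rw [hQ.S, Set.image_pair]
  · exact fun h => hQ.ne (e.symm.injective h)
  · intro h1
    apply hQ.irr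
    obtain ⟨y, hy, hy'⟩ := h1
    have : e.symm y = e.symm (s * t * s⁻¹ * t⁻¹) := by
      rw [map_mul, map_mul, map_mul, map_inv, map_inv]; exact hy'
    rwa [← e.symm.injective this]

end Cfsg.Agent.H580.LieF
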