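import Mathlib
import Cfsg.Agent.S0003
import Cfsg.Agent.Lib.FrattiniPGroup

/-!
# Solvable groups with exactly two classes of maximal subgroups have two prime divisors
-/

set_option autoImplicit false
open scoped Pointwise

namespace Cfsg.Agent.H580.TwoPrimes

open Subgroup

universe u

variable {G : Type u} [Group G]

theorem index_conj (g : G) (M : Subgroup G) : (MulAut.conj g • M).index = M.index :=
  Subgroup.index_map_of_bijective (MulAut.conj g).bijective M

/-- A solvable group has a maximal subgroup of index a power of `p`. -/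
theorem exists_coatom [Finite G] (hsol : Group.IsSolvable G) {p : ℕ} (hp : p.Prime) (hpG : p ∣ Nat.card G) :
    ∃ M : Subgroup G, IsCoatom M ∧ ∃ a, a ≠ 0 ∧ M.index = p ^ a := by
  have h0 : Nat.card G ≠ 0 := Nat.card_pos.ne'
  have h1 : Nat.card G = (Nat.card G / p ^ (Nat.card G).factorization p) * p ^ (Nat.card G).factorization p := by
    rw [mul_comm]
    exact (Nat.ordProj_mul_ordCompl_eq_self _ p).symm
  obtain ⟨H, hH⟩ := S0003.result _ _ h1 (Nat.Coprime.pow_right _ (Nat.coprime_ordCompl hp h0).symm)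
  have hf : (Nat.card G).factorization p ≠ 0 := (hp.factorization_pos_of_dvd h0 hpG).ne'
  have h2 : H.index = p ^ (Nat.card G).factorization p := by
    have h3 := H.card_mul_index
    have h4 : 0 < Nat.card H := Nat.card_pos
    apply Nat.eq_of_mul_eq_mul_left h4
    rw [h3]
    conv_rhs => rw [hH]
    exact h1
  have h3 : H ≠ ⊤ := by
    intro h
    rw [h, index_top] at h2
    have := Nat.one_lt_pow hf hp.one_lt
    omega
  obtain h4 | ⟨M, hM, hHM⟩ := eq_top_or_exists_le_coatom H
  · exact absurd h4 h3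
  refine ⟨M, hM, ?_⟩
  obtain ⟨a, -, ha⟩ := (Nat.dvd_prime_pow hp).mp (h2 ▸ index_dvd_of_le hHM)
  refine ⟨a, ?_, ha⟩
  rintro rfl
  rw [pow_zero, index_eq_one] at ha
  exact hM.1 ha

/-- A `p`-group does not have exactly two maximal subgroups. -/
theorem false_of_pGroup [Finite G] {p : ℕ} [hp : Fact p.Prime] (hG : IsPGroup p G) {M₁ M₂ : Subgroup G}
    (h1 : IsCoatom M₁) (h2 : IsCoatom M₂) (hne : M₁ ≠ M₂)
    (hall : ∀ M : Subgroup G, IsCoatom M → M = M₁ ∨ M = M₂) : False := by
  have hn₁ := Lib.FrattiniPGroup.normal_of_coatom hG h1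
  have hn₂ := Lib.FrattiniPGroup.normal_of_coatom hG h2
  have hi₁ := Lib.FrattiniPGroup.index_of_coatom hG h1
  have hi₂ := Lib.FrattiniPGroup.index_of_coatom hG h2
  -- an element outside both
  obtain ⟨x, hx1, hx2⟩ : ∃ x : G, x ∉ M₁ ∧ x ∉ M₂ := by
    by_contra hcon
    push Not at hcon
    obtain ⟨a, ha⟩ : ∃ a : G, a ∉ M₁ := by
      by_contra h
      push Not at h
      exact h1.1 (eq_top_iff.mpr fun y _ => h y)
    obtain ⟨b, hb⟩ : ∃ b : G, b ∉ M₂ := by
      by_contra h
      push Not at h
      exact h2.1 (eq_top_iff.mpr fun y _ => h y)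
    have ha2 := hcon a ha
    have hb1 : b ∈ M₁ := by
      by_contra h
      exact hb (hcon b h)
    have h3 : a * b ∉ M₁ := fun h => ha ((M₁.mul_mem_cancel_right hb1).mp h)
    have h4 := hcon _ h3
    exact hb ((M₂.mul_mem_cancel_left ha2).mp h4)
  have hgen : zpowers x = ⊤ := by
    obtain h | ⟨M, hM, hxM⟩ := eq_top_or_exists_le_coatom (zpowers x)
    · exact h
    · exfalso
      have hx : x ∈ M := hxM (mem_zpowers x)
      rcases hall M hM with rfl | rfl
      · exact hx1 hx
      · exact hx2 hx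
  -- both contain `x ^ p`
  have hp1 : x ^ p ∈ M₁ := by
    have := Subgroup.pow_index_mem M₁ x
    rwa [hi₁] at this
  have hp2 : x ^ p ∈ M₂ := by
    have := Subgroup.pow_index_mem M₂ x
    rwa [hi₂] at this
  have hox : orderOf x = Nat.card G := by
    rw [← Nat.card_zpowers, hgen, card_top]
  have hpG : p ∣ Nat.card G := by
    have := M₁.index_dvd_card
    rwa [hi₁] at this
  have hcz : Nat.card (zpowers (x ^ p)) * p = Nat.card G := by
    rw [Nat.card_zpowers, orderOf_pow_of_dvd hp.out.ne_zero (hox ▸ hpG), hox]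
    exact Nat.div_mul_cancel hpG
  have key : ∀ M : Subgroup G, M.index = p → x ^ p ∈ M → M = zpowers (x ^ p) := by
    intro M hi hx
    have a := M.card_mul_index
    rw [hi, ← hcz] at a
    have := Nat.eq_of_mul_eq_mul_right hp.out.pos a
    exact (Subgroup.eq_of_le_of_card_ge ((zpowers_le).mpr hx) this.le).symm
  exact hne ((key M₁ hi₁ hp1).trans (key M₂ hi₂ hp2).symm)

theorem card_primeFactors [Finite G] (hsol : Group.IsSolvable G)
    (M₁ M₂ : Subgroup G) (h1 : IsCoatom M₁) (h2 : IsCoatom M₂) (hne : ∀ g : G, M₂ ≠ MulAut.conj g • M₁)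
    (hall : ∀ M : Subgroup G, IsCoatom M → ∃ g : G, M = MulAut.conj g • M₁ ∨ M = MulAut.conj g • M₂) :
    (Nat.card G).primeFactors.card = 2 := by
  have key : ∀ p ∈ (Nat.card G).primeFactors, ∃ n ∈ ({M₁.index, M₂.index} : Finset ℕ), ∃ a, a ≠ 0 ∧ n = p ^ a := by
    intro p hp
    have hpp := Nat.prime_of_mem_primeFactors hp
    obtain ⟨M, hM, a, ha, hi⟩ := exists_coatom hsol hpp (Nat.dvd_of_mem_primeFactors hp)
    obtain ⟨g, rfl | rfl⟩ := hall M hM
    · rw [index_conj] at hi
      exact ⟨M₁.index, by simp, a, ha, hi⟩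
    · rw [index_conj] at hi
      exact ⟨M₂.index, by simp, a, ha, hi⟩
  choose! f hf hf' using key
  have hle : (Nat.card G).primeFactors.card ≤ 2 := by
    refine (Finset.card_le_card_of_injOn f hf ?_).trans (Finset.card_le_two)
    intro p hp q hq hpq
    obtain ⟨a, ha, h3⟩ := hf' p hp
    obtain ⟨b, hb, h4⟩ := hf' q hq
    have hpp := Nat.prime_of_mem_primeFactors hp
    have hqp := Nat.prime_of_mem_primeFactors hq
    have h5 : p ∣ q ^ b := by
      rw [← h4, ← hpq, h3]
      exact dvd_pow_self p ha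
    exact (Nat.prime_dvd_prime_iff_eq hpp hqp).mp (hpp.dvd_of_dvd_pow h5)
  have h0 : (Nat.card G).primeFactors.card ≠ 0 := by
    intro h
    rw [Finset.card_eq_zero, Nat.primeFactors_eq_empty] at h
    rcases h with h | h
    · exact Nat.card_pos.ne' h
    · apply h1.1
      rw [← index_eq_one]
      have := M₁.index_dvd_card
      rw [h] at this
      exact Nat.dvd_one.mp this
  have h1' : (Nat.card G).primeFactors.card ≠ 1 := by
    intro h
    obtain ⟨p, hp⟩ := Finset.card_eq_one.mp h
    have hpp : p.Prime := Nat.prime_of_mem_primeFactors (hp ▸ Finset.mem_singleton_self p)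
    have := Fact.mk hpp
    have hG : IsPGroup p G := by
      rw [IsPGroup.iff_card]
      refine ⟨_, Nat.eq_prime_pow_of_unique_prime_dvd Nat.card_pos.ne' (fun {d} hd hdG => ?_)⟩
      have : d ∈ (Nat.card G).primeFactors := Nat.mem_primeFactors.mpr ⟨hd, hdG, Nat.card_pos.ne'⟩
      rw [hp] at this
      exact Finset.mem_singleton.mp this
    have hn₁ := Lib.FrattiniPGroup.normal_of_coatom hG h1
    have hn₂ := Lib.FrattiniPGroup.normal_of_coatom hG h2
    refine false_of_pGroup hG h1 h2 ?_ ?_
    · intro h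
      apply hne 1
      rw [map_one, one_smul]
      exact h.symm
    · intro M hM
      obtain ⟨g, rfl | rfl⟩ := hall M hM
      · left; exact Subgroup.Normal.conj_smul_eq_self g M₁
      · right; exact Subgroup.Normal.conj_smul_eq_self g M₂
  omega

end Cfsg.Agent.H580.TwoPrimes
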